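import Cfsg.Agent.H457.RC.KGrp
import Cfsg.Agent.H297.RC.LR
import Cfsg.Agent.H520.RC.MHom
import Cfsg.Agent.H138.RC.Base

/-!
# S3510, row F even, box D4m (helper457)

`n = 8`, all lifts are linear over `K = F[κ]` (`q²` elements, self adjoint), the `K`-form is of minus type.
-/

set_option autoImplicit false
set_option linter.unusedSectionVars false
open Cfsg

namespace Cfsg.Agent.H457.RC

open QuadraticMap MulAction
open Cfsg.Agent.LieClassical.OrthCore Cfsg.Agent.LieClassical.OrthTrans
open Cfsg.Agent.LieClassical.OrthSimple Cfsg.Agent.ClassicalGeometry.OrthSemi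
open Cfsg.Agent.ClassicalGeometry.OrthAut1 Cfsg.Agent.H106.RC Cfsg.Agent.H93.RC Cfsg.Agent.H188.RC
open Cfsg.Agent.H138.RC
open scoped commutatorElement

/-- what is needed of a four-dimensional form of minus type -/
structure M4 {K V : Type} [Field K] [AddCommGroup V] [Module K V] (R : QuadraticForm K V) : Prop where
  perf : commutator ↥(E R) = ⊤
  comm : ⁅O R, O R⁆ ≤ E R
  scal : ∀ M : Gam R, conjE R M = 1 → IsScal M
  iso : ∃ (L : Type) (_ : Field L) (_ : Fintype L), Nat.card L = Nat.card K ^ 2 ∧
    Nonempty (P R ≃* Matrix.ProjectiveSpecialLinearGroup (Fin 2) L)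

section torus

variable {K V : Type*} [Field K] [AddCommGroup V] [Module K V] {R : QuadraticForm K V} {e f : V}

theorem Q_sub_smul (h : Hyp R e f) (c : K) : R (e - c • f) = -c := by
  rw [sub_eq_add_neg, Q_add, QuadraticMap.map_neg, QuadraticMap.map_smul, h.left, h.right, polar_neg_right,
    polar_smul_right, h.pair]
  simp

/-- the element `-1` on the hyperbolic plane, `1` on its orthogonal space is a commutator -/
theorem exists_torus (h : Hyp R e f) {i : K} (hi : i * i = -1) :
    ∃ m : V ≃ₗ[K] V, m ∈ ⁅O R, O R⁆ ∧ ∀ v, m v = v - (2 * polar R f v) • e - (2 * polar R e v) • f := by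
  have hi0 : i ≠ 0 := by
    rintro rfl
    rw [mul_zero] at hi
    exact one_ne_zero (neg_eq_zero.mp hi.symm)
  have ha : R (e - i • f) ≠ 0 := by
    rw [Q_sub_smul h]; exact neg_ne_zero.mpr hi0
  have hb : R (e - (1 : K) • f) ≠ 0 := by
    rw [Q_sub_smul h]; exact neg_ne_zero.mpr one_ne_zero
  refine ⟨⁅refl R _ ha, refl R _ hb⁆, Subgroup.commutator_mem_commutator (refl_mem_O ha) (refl_mem_O hb), ?_⟩
  have ha' : (refl R _ ha)⁻¹ = refl R _ ha := inv_eq_of_mul_eq_one_left (refl_mul_self ha)
  have hb' : (refl R _ hb)⁻¹ = refl R _ hb := inv_eq_of_mul_eq_one_left (refl_mul_self hb)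
  have hee : polar R e e = 0 := h.polar_left
  have hff : polar R f f = 0 := h.polar_right
  have hef : polar R e f = 1 := h.pair
  have hfe : polar R f e = 1 := h.pair'
  have hra : ∀ v, refl R _ ha v = v + (i⁻¹ * polar R e v - polar R f v) • e - (polar R e v - i * polar R f v) • f := by
    intro v
    rw [refl_apply, Q_sub_smul h, sub_eq_add_neg e, polar_add_left, polar_neg_left, polar_smul_left]
    match_scalars <;> field_simp <;> ring
  have hrb : ∀ v, refl R _ hb v = v + (polar R e v - polar R f v) • e - (polar R e v - polar R f v) • f := by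
    intro v
    rw [refl_apply, Q_sub_smul h, sub_eq_add_neg e, polar_add_left, polar_neg_left, polar_smul_left]
    match_scalars <;> field_simp <;> ring
  have hab : ∀ v, refl R _ ha (refl R _ hb v) = v - ((1 + i) * polar R f v) • e + ((i - 1) * polar R e v) • f := by
    intro v
    have hii : i⁻¹ = -i := by
      rw [inv_eq_iff_eq_inv, eq_comm, inv_eq_of_mul_eq_one_left]
      linear_combination -hi
    rw [hra, hrb, hii]
    simp only [polar_add_right, polar_sub_right, polar_smul_right, hee, hff, hef, hfe, smul_eq_mul]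
    match_scalars
    · ring
    · ring
    · ring
  intro v
  rw [commutatorElement_def, ha', hb']
  show refl R _ ha (refl R _ hb (refl R _ ha (refl R _ hb v))) = _
  rw [hab, hab]
  simp only [polar_add_right, polar_sub_right, polar_smul_right, hee, hff, hef, hfe, smul_eq_mul]
  match_scalars
  · ring
  · linear_combination (polar R f v) * hi
  · linear_combination (polar R e v) * hi

end torus

section main

variable {F V : Type} [Field F] [Finite F] [AddCommGroup V] [Module F V] [FiniteDimensional F V]
  {Q : QuadraticForm F V} {G Ω : Type} [Group G] [Finite G] [MulAction G Ω] [Nonempty Ω]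
  {N : Subgroup G} {ρ : ↥(E Q) →* G}

/-- **BOX D4m**, from box F1 (`hLR`) and the facts about four-dimensional forms of minus type (`hM4`). -/
theorem box_D4m_of (hM4 : ∀ (K : Type) [Field K] [Finite K] [Module K V] [FiniteDimensional K V]
      (R : QuadraticForm K V), Nondeg R → Module.finrank K V = 4 →
      (∀ U : Submodule K V, (∀ v ∈ U, R v = 0) → Module.finrank K U ≤ 1) → M4 R)
    (hG : Good Q) (hE : Env G Ω N) (hρ : Rep Q N ρ) (hIH : IH (Nat.card (P Q)))
    {p : ℕ} [CharP F p] (hLR : LR Q Ω ρ p) {ι : Type} [Finite ι] {x : ι → G} {M : ι → Gam Q} {r : ι → ℕ}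
    (hl : ∀ i, Lf ρ (x i) (M i)) (hlin : ∀ i, IsLin (M i)) (hx : PF x r) (hcov : Cov Ω x)
    (h8 : Module.finrank F V = 8) (κ : V →ₗ[F] V) (s t : F)
    (hκ : ∀ v, κ (κ v) = s • κ v - t • v) (hirr : ∀ a : F, a * a - s * a + t ≠ 0)
    (hadj : ∀ v w, polar Q (κ v) w = polar Q v (κ w))
    (hcom : ∀ i v, (M i).1 (κ v) = κ ((M i).1 v))
    (hminus : ∀ U : Submodule F V, (∀ v ∈ U, Q v = 0) → (∀ v ∈ U, κ v ∈ U) →
      Module.finrank F U ≠ 4) : False := by
  classical
  have hfin : Finite V := Module.finite_of_finite F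
  obtain ⟨K, _, _, _, _, _, _, α, R, hc, hα, hgen, -, hR, hRnd, hfr, hM⟩ :=
    exists_all hG.nondeg (by omega) κ s t hκ hirr hadj
  have h4 : Module.finrank K V = 4 := by omega
  have hα' : ∀ a : F, α ≠ algebraMap F K a := hgen.notMem
  -- minus type
  have hm : ∀ U : Submodule K V, (∀ v ∈ U, R v = 0) → Module.finrank K U ≤ 1 := by
    intro U hU
    by_contra hlt
    push Not at hlt
    have : Nontrivial U := Module.nontrivial_of_finrank_pos (R := K) (by omega)
    obtain ⟨u, hu⟩ := exists_ne (0 : U)
    obtain ⟨w, hw⟩ : ∃ w : U, ∀ a : K, w ≠ a • u := by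
      by_contra hno
      push Not at hno
      have h1 : (⊤ : Submodule K U) ≤ Submodule.span K {u} := by
        intro w _
        obtain ⟨a, ha⟩ := hno w
        rw [ha]
        exact Submodule.smul_mem _ _ (Submodule.mem_span_singleton_self u)
      have h2 := Submodule.finrank_mono h1
      rw [finrank_top] at h2
      have h3 := finrank_span_singleton (K := K) hu
      omega
    have hw' : ∀ a : K, (w : V) ≠ a • (u : V) := fun a h => hw a (Subtype.ext h)
    have hu' : (u : V) ≠ 0 := fun h => hu (Subtype.ext h)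
    have h5 : Module.finrank K (Submodule.span K {(u : V), (w : V)}) = 2 :=
      H297.RC.finrank_pair hu' hw'
    have hle : Submodule.span K {(u : V), (w : V)} ≤ U := by
      rw [Submodule.span_le]
      rintro z (rfl | rfl)
      · exact u.2
      · exact w.2
    apply hminus ((Submodule.span K {(u : V), (w : V)}).restrictScalars F)
    · intro v hv
      have := hR.sing (hU v (hle hv)) 1
      rwa [one_smul] at this
    · intro v hv
      rw [← hα]
      exact Submodule.smul_mem _ α hv
    · have h6 := finrank_K (F := F) (K := K) (V := ↥(Submodule.span K {(u : V), (w : V)})) hc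
      rw [h5] at h6
      exact h6
  obtain ⟨hp, hOO, hsc, L, _, _, hL, ⟨e0⟩⟩ := hM4 K R hRnd h4 hm
  have hfP : Finite (P Q) := Cfsg.Agent.H236.RC.finite_P (Q := Q)
  -- singular vectors
  obtain ⟨e, -, he0, he⟩ := Cfsg.Agent.LieClassical.OrthFinite.exists_sing_mem (Q := R) (⊤ : Submodule K V)
    (by rw [finrank_top]; omega)
  obtain ⟨f, hef⟩ := exists_hyp hRnd he he0
  -- the quotient
  have hF2 : 2 ≤ Nat.card F := Finite.one_lt_card
  have hK4 : 4 ≤ Nat.card K := by
    rw [hc]
    calc 4 = 2 ^ 2 := by norm_num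
      _ ≤ _ := Nat.pow_le_pow_left hF2 2
  have hL16 : 16 ≤ Nat.card L := by
    rw [hL]
    calc 16 = 4 ^ 2 := by norm_num
      _ ≤ _ := Nat.pow_le_pow_left hK4 2
  have hs1 : IsSimpleGroup (Matrix.ProjectiveSpecialLinearGroup (Fin 2) L) :=
    Matrix.ProjectiveSpecialLinearGroup.rank_two_simple (by omega)
  have hL16' : 16 ≤ Fintype.card L := by rwa [← Nat.card_eq_fintype_card]
  let g : ↥(E R) →* Matrix.ProjectiveSpecialLinearGroup (Fin 2) L :=
    e0.toMonoidHom.comp (QuotientGroup.mk' (Subgroup.center ↥(E R)))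
  have hg : Function.Surjective g := e0.surjective.comp (QuotientGroup.mk'_surjective _)
  have hgk : g.ker = Subgroup.center ↥(E R) := by
    ext a
    rw [MonoidHom.mem_ker]
    show e0 (QuotientGroup.mk a) = 1 ↔ _
    rw [EmbeddingLike.map_eq_one_iff, QuotientGroup.eq_one_iff]
  have hs2 : ¬ IsMulCommutative (Matrix.ProjectiveSpecialLinearGroup (Fin 2) L) := by
    intro hcm
    have h1 : commutator (Matrix.ProjectiveSpecialLinearGroup (Fin 2) L) = ⊤ := by
      have h2 : (commutator ↥(E R)).map g = commutator (Matrix.ProjectiveSpecialLinearGroup (Fin 2) L) := by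
        rw [commutator_def, commutator_def, Subgroup.map_commutator, ← MonoidHom.range_eq_map,
          MonoidHom.range_eq_top.2 hg]
      rw [← h2, hp, ← MonoidHom.range_eq_map, MonoidHom.range_eq_top.2 hg]
    have h3 : commutator (Matrix.ProjectiveSpecialLinearGroup (Fin 2) L) = ⊥ := by
      rw [commutator_def, Subgroup.commutator_eq_bot_iff_le_centralizer]
      intro a _
      rw [Subgroup.mem_centralizer_iff]
      intro b _
      exact hcm.is_comm.comm b a
    rw [h1] at h3
    have := hs1.toNontrivial
    exact top_ne_bot h3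
  have hs3 : Cl (Matrix.ProjectiveSpecialLinearGroup (Fin 2) L) :=
    Or.inl ⟨L, inferInstance, inferInstance, 2, le_rfl, fun _ => by omega, ⟨MulEquiv.refl _⟩⟩
  have hs4 : ¬ Exc (Matrix.ProjectiveSpecialLinearGroup (Fin 2) L) := by
    intro h
    rcases psl_exc le_rfl h with ⟨-, h⟩ | ⟨h, -⟩
    · omega
    · omega
  -- the lifts over `K`
  choose ML c hML hMLlin hc0 hMQ hMR using fun i => hM (M i) (hlin i) (hcom i)
  have eN : N ≃* P Q := by
    have h1 : P Q ≃* ρ.range :=
      (QuotientGroup.quotientMulEquivOfEq hρ.ker.symm).trans (QuotientGroup.quotientKerEquivRange ρ)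
    exact (h1.trans (MulEquiv.subgroupCongr hρ.range)).symm
  have hrule := Cfsg.Agent.H520.RC.mrule_hom (Ω := Ω) hIH eN (jj hG hp hR ρ) (jj_range_le hG hp hR hρ)
    (range_ne hG hp hR hρ hRnd (by omega) hef α hα') hp g hg hgk (ker_jj hG hp hR hρ) hs1 hs2 hs3 hs4 hx hcov
    (fun i a => ⟨_, x_conj hG hp hR (hl i) (ML i) (hML i) a⟩)
  -- the members centralising the image
  have hJ : ∀ i, (∀ a, x i * jj hG hp hR ρ a = jj hG hp hR ρ a * x i) →
      (2 : F) ≠ 0 ∧ r i = 2 ∧ ∃ a : K, ∀ v, (M i).1 v = a • v := by
    intro i hi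
    obtain ⟨a, ha0, ha⟩ := scal_of_cent hG hp hR hsc hρ (hl i) (ML i) (hML i) hi
    have h1 : R (e + f) = 1 := by
      rw [Q_add, hef.left, hef.right, hef.pair, zero_add, zero_add]
    have h2 : a * a = algebraMap F K (c i) := by
      have h3 := hMR i (e + f)
      rw [ha, QuadraticMap.map_smul, h1] at h3
      simpa using h3
    have h3 : ∀ b : F, a ≠ algebraMap F K b := by
      rintro b rfl
      apply hx.ne i
      rw [(hl i).eq_one_iff hG hE hρ]
      refine ⟨b, ?_, fun v => ?_⟩
      · rintro rfl
        exact ha0 (map_zero _)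
      · rw [ha, algebraMap_smul]
    have h4' : x i ^ 2 = 1 := by
      rw [((hl i).pow 2).eq_one_iff hG hE hρ]
      refine ⟨c i, hc0 i, fun v => ?_⟩
      rw [pow_two]
      show (M i).1 ((M i).1 v) = _
      rw [ha, ha, smul_smul, h2, algebraMap_smul]
    have h5 : r i = 2 := by
      have h6 : orderOf (x i) = r i := by
        have : Fact (r i).Prime := ⟨hx.prime i⟩
        exact orderOf_eq_prime (hx.pow i) (hx.ne i)
      have h7 : r i ∣ 2 := by
        rw [← h6]
        exact orderOf_dvd_of_pow_eq_one h4'
      exact (Nat.prime_dvd_prime_iff_eq (hx.prime i) Nat.prime_two).mp h7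
    refine ⟨?_, h5, a, ha⟩
    intro h2F
    have hch : CharP F 2 := CharTwo.of_one_ne_zero_of_two_eq_zero one_ne_zero h2F
    obtain ⟨b, hb⟩ := FiniteField.isSquare_of_char_two (F := F) (ringChar.eq F 2 ▸ rfl) (c i)
    apply h3 b
    have h2K : (2 : K) = 0 := by rw [← map_ofNat (algebraMap F K) 2, h2F, map_zero]
    have h6 : (a - algebraMap F K b) ^ 2 = 0 := by
      rw [hb, map_mul] at h2
      linear_combination h2 + (algebraMap F K b * algebraMap F K b - a * algebraMap F K b) * h2K
    exact sub_eq_zero.mp (pow_eq_zero_iff (two_ne_zero) |>.mp h6)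
  by_cases hJe : ∃ i, ∀ a, x i * jj hG hp hR ρ a = jj hG hp hR ρ a * x i
  · obtain ⟨i₀, hi₀⟩ := hJe
    obtain ⟨h2F, hr0, a, ha⟩ := hJ i₀ hi₀
    have h2K : (2 : K) ≠ 0 := by rwa [← map_ofNat (algebraMap F K) 2, Ne, map_eq_zero]
    have hp2 : p ≠ 2 := by
      rintro rfl
      apply h2F
      have := CharP.cast_eq_zero F 2
      exact_mod_cast this
    -- a square root of `-1`
    obtain ⟨i, hi⟩ : ∃ i : K, i * i = -1 := by
      have hft : Fintype K := Fintype.ofFinite K
      have h1 : IsSquare (-1 : K) := by
        rw [FiniteField.isSquare_neg_one_iff, ← Nat.card_eq_fintype_card, hc]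
        intro h
        have h2 := Nat.pow_mod (Nat.card F) 2 4
        have h3 : Nat.card F % 4 < 4 := Nat.mod_lt _ (by norm_num)
        interval_cases h5 : Nat.card F % 4 <;> simp at h2 <;> omega
      obtain ⟨i, hi⟩ := h1
      exact ⟨i, hi.symm⟩
    obtain ⟨m, hm1, hmv⟩ := exists_torus hef hi
    let mE : ↥(E R) := ⟨m, hOO hm1⟩
    have hee : polar R e e = 0 := hef.polar_left
    have hff : polar R f f = 0 := hef.polar_right
    have hfe : polar R f e = 1 := hef.pair'
    have hef1 : polar R e f = 1 := hef.pair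
    have hme : m e = -e := by
      rw [hmv, hee, hfe]
      module
    have hmm : ∀ v, m (m v) = v := by
      intro v
      rw [hmv (m v), hmv v]
      simp only [polar_sub_right, polar_smul_right, hee, hff, hef1, hfe, smul_eq_mul]
      module
    have hy1 : jj hG hp hR ρ mE ≠ 1 := by
      intro h
      have h1 : psi hG hp hR mE ∈ Subgroup.center ↥(E Q) := by
        rw [← hρ.ker, MonoidHom.mem_ker]
        exact h
      obtain ⟨b, -, hb⟩ := scal_of_center hG h1
      have hb' : ∀ v, m v = b • v := hb
      obtain ⟨w, w', hew, hfw, -, -, hww⟩ := exists_perp2 hRnd (by omega) hef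
      have hw0 : w ≠ 0 := by
        rintro rfl
        rw [polar_zero_left] at hww
        exact zero_ne_one hww
      have h2 : m w = w := by
        rw [hmv, hew, hfw]
        module
      have h3 : b = 1 := by
        have h5 := hb' w
        rw [h2] at h5
        have h6 : (1 - b) • w = 0 := by rw [sub_smul, one_smul, ← h5, sub_self]
        rcases smul_eq_zero.mp h6 with h7 | h7
        · exact (sub_eq_zero.mp h7).symm
        · exact (hw0 h7).elim
      have h5 := hb' e
      rw [hme, h3, one_smul] at h5
      have h6 : (2 : K) • e = 0 := by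
        rw [two_smul]
        nth_rewrite 1 [← h5]
        exact neg_add_cancel e
      rcases smul_eq_zero.mp h6 with h7 | h7
      · exact h2K h7
      · exact he0 h7
    have hy2 : jj hG hp hR ρ mE ^ 2 = 1 := by
      rw [← map_pow]
      have h1 : mE ^ 2 = 1 := by
        apply Subtype.ext
        apply LinearEquiv.ext
        intro v
        rw [pow_two]
        exact hmm v
      rw [h1, map_one]
    -- the plane `K e`
    have hspan : ∀ b : K, b • e ∈ Submodule.span F {e, α • e} := by
      intro b
      obtain ⟨u, w, rfl⟩ := hgen.gen b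
      rw [add_smul, mul_smul, algebraMap_smul, algebraMap_smul]
      exact Submodule.add_mem _ (Submodule.smul_mem _ _ (Submodule.subset_span (by simp)))
        (Submodule.smul_mem _ _ (Submodule.subset_span (by simp)))
    have hspan' : ∀ v ∈ Submodule.span F {e, α • e}, ∃ b : K, v = b • e := by
      intro v hv
      obtain ⟨u, w, rfl⟩ := Submodule.mem_span_pair.mp hv
      exact ⟨algebraMap F K u + algebraMap F K w * α, by
        rw [add_smul, mul_smul, algebraMap_smul, algebraMap_smul]⟩
    have hQe : Q e = 0 := by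
      have := hR.sing he 1
      rwa [one_smul] at this
    have hQαe : Q (α • e) = 0 := hR.sing he α
    have hQee : polar Q e (α • e) = 0 := by
      have := hR.orth hee 1 α
      rwa [one_smul] at this
    refine hLR Bool (y := fun b => cond b (jj hG hp hR ρ mE) (x i₀))
      (L := fun b => cond b (tg Q (psi hG hp hR mE)) (M i₀)) (s := fun _ => 2) ?_ (fun _ => Nat.prime_two)
      (fun _ => hp2.symm) ?_ ?_ ?_ hQe hQαe hQee he0 ?_ ?_ ?_
    · rintro (_ | _)
      · exact hl i₀
      · exact Lf.tg _
    · rintro (_ | _)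
      · have := hx.pow i₀
        rw [hr0] at this
        exact this
      · exact hy2
    · rintro (_ | _)
      · exact hx.ne i₀
      · exact hy1
    · rintro (_ | _) (_ | _)
      · rfl
      · exact hi₀ mE
      · exact (hi₀ mE).symm
      · rfl
    · intro b hb
      apply hα' b
      have h1 : (α - algebraMap F K b) • e = 0 := by
        rw [sub_smul, hb, algebraMap_smul, sub_self]
      rcases smul_eq_zero.mp h1 with h2 | h2
      · exact sub_eq_zero.mp h2
      · exact (he0 h2).elim
    · rintro (_ | _) v hv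
      · obtain ⟨b, rfl⟩ := hspan' v hv
        show (M i₀).1 (b • e) ∈ _
        rw [ha, smul_smul]
        exact hspan _
      · obtain ⟨b, rfl⟩ := hspan' v hv
        show m (b • e) ∈ _
        rw [map_smul, hme, smul_neg, ← neg_smul]
        exact hspan _
    · intro ω
      right
      rcases hrule ω with h | ⟨j, hj, hjω⟩
      · exact ⟨true, h mE⟩
      · obtain ⟨-, hr1, -⟩ := hJ j hj
        have : j = i₀ := hx.inj (hr1.trans hr0.symm)
        subst this
        exact ⟨false, hjω⟩
  · -- no member centralises the image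
    have h1 : ∀ a, jj hG hp hR ρ a = 1 := by
      intro a
      apply hE.single
      intro ω
      rcases hrule ω with h | ⟨j, hj, -⟩
      · exact h a
      · exact (hJe ⟨j, hj⟩).elim
    have := hs1.toNontrivial
    obtain ⟨z, hz⟩ := exists_ne (1 : Matrix.ProjectiveSpecialLinearGroup (Fin 2) L)
    obtain ⟨a, rfl⟩ := hg z
    apply hz
    rw [← MonoidHom.mem_ker, hgk]
    exact ker_jj hG hp hR hρ (h1 a)

end main

end Cfsg.Agent.H457.RC
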